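import Cfsg.Agent.H62.ChiefRep
import Cfsg.Agent.H52.Four
import Cfsg.Agent.PF.PData2
import Cfsg.Agent.S14.Final

set_option autoImplicit false

/-!
A four-group acting on a group `X` of odd order, without fixed points and with abelian centralisers of
the three involutions: the derived group of `X` lies in the Fitting subgroup.
-/

namespace Cfsg.Agent.H23.Nil

universe u v

open Cfsg.Agent

section rep
variable {ℓ : ℕ} [hℓ : Fact ℓ.Prime] {M : Type v} [AddCommGroup M] [Module (ZMod ℓ) M]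
variable {Y : Type u} [Group Y]

/-- the commutator `[M, H]` -/
def com (ρ : Representation (ZMod ℓ) Y M) (H : Subgroup Y) : Submodule (ZMod ℓ) M :=
  Submodule.span (ZMod ℓ) {w | ∃ h ∈ H, ∃ m, w = ρ h m - m}

theorem sub_mem_com (ρ : Representation (ZMod ℓ) Y M) {H : Subgroup Y} {h : Y} (hh : h ∈ H) (m : M) :
    ρ h m - m ∈ com ρ H := Submodule.subset_span ⟨h, hh, m, rfl⟩

theorem com_conj (ρ : Representation (ZMod ℓ) Y M) {H : Subgroup Y} {y : Y} (hy : ∀ h ∈ H, y * h * y⁻¹ ∈ H)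
    {m : M} (hm : m ∈ com ρ H) : ρ y m ∈ com ρ H := by
  induction hm using Submodule.span_induction with
  | mem w hw =>
    obtain ⟨h, hh, m, rfl⟩ := hw
    have e : ρ y (ρ h m - m) = ρ (y * h * y⁻¹) (ρ y m) - ρ y m := by
      rw [map_sub, ← HH.rho_mul, ← HH.rho_mul]
      congr 3
      group
    rw [e]
    exact sub_mem_com ρ (hy h hh) _
  | zero => rw [map_zero]; exact Submodule.zero_mem _
  | add x z _ _ hx hz => rw [map_add]; exact Submodule.add_mem _ hx hz
  | smul c x _ hx => rw [map_smul]; exact Submodule.smul_mem _ _ hx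

theorem sum_com (ρ : Representation (ZMod ℓ) Y M) (H : Subgroup Y) [Fintype H]
    {m : M} (hm : m ∈ com ρ H) : ∑ h : H, ρ (h : Y) m = 0 := by
  induction hm using Submodule.span_induction with
  | mem w hw =>
    obtain ⟨k, hk, m, rfl⟩ := hw
    simp only [map_sub, Finset.sum_sub_distrib]
    rw [sub_eq_zero]
    refine Fintype.sum_equiv (Equiv.mulRight (⟨k, hk⟩ : H)) _ _ ?_
    intro h
    rw [Equiv.coe_mulRight, Subgroup.coe_mul, HH.rho_mul]
  | zero => simp
  | add x z _ _ hx hz => simp only [map_add, Finset.sum_add_distrib, hx, hz, add_zero]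
  | smul c x _ hx => simp only [map_smul, ← Finset.smul_sum, hx, smul_zero]

theorem mem_of_com (ρ : Representation (ZMod ℓ) Y M) (H : Subgroup Y) [Finite H] (hH : ¬ ℓ ∣ Nat.card H)
    {m : M} (hm : m ∈ com ρ H) (W : Submodule (ZMod ℓ) M) (hW : ∀ h ∈ H, ρ h m - m ∈ W) : m ∈ W := by
  classical
  haveI := Fintype.ofFinite H
  have h1 := sum_com ρ H hm
  have h2 : ∑ h : H, (ρ (h : Y) m - m) ∈ W := W.sum_mem fun h _ => hW h h.2
  rw [Finset.sum_sub_distrib, h1, zero_sub, Finset.sum_const, Finset.card_univ, ← Nat.card_eq_fintype_card,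
    Submodule.neg_mem_iff, ← Nat.cast_smul_eq_nsmul (ZMod ℓ)] at h2
  have h3 : ((Nat.card H : ℕ) : ZMod ℓ) ≠ 0 := by
    rw [Ne, ZMod.natCast_eq_zero_iff]; exact hH
  have h4 := W.smul_mem ((Nat.card H : ZMod ℓ))⁻¹ h2
  rwa [smul_smul, inv_mul_cancel₀ h3, one_smul] at h4

theorem zero_of_com (ρ : Representation (ZMod ℓ) Y M) (H : Subgroup Y) [Finite H] (hH : ¬ ℓ ∣ Nat.card H)
    {m : M} (hm : m ∈ com ρ H) (hf : ∀ h ∈ H, ρ h m = m) : m = 0 := by
  have := mem_of_com ρ H hH hm ⊥ (fun h hh => by rw [hf h hh, sub_self]; exact Submodule.zero_mem _)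
  rwa [Submodule.mem_bot] at this

theorem step [Finite Y] (ρ : Representation (ZMod ℓ) Y M) (X N : Subgroup Y) (hNn : N.Normal)
    (hNab : ∀ x ∈ N, ∀ y ∈ N, x * y = y * x) (hNodd : Odd (Nat.card N)) (hNl : ¬ ℓ ∣ Nat.card N)
    {u v : Y} (hu : u * u = 1) (hv : v * v = 1) (huv : u * v = v * u)
    (h1 : ∀ x ∈ N, u * x = x * u → v * x = x * v → x = 1)
    (hPv : ∀ x ∈ N, v * x = x * v → ∀ m, ρ v m = m → ρ x m = m)
    (hPu : ∀ x ∈ X, u * x = x * u → ∀ m, ρ u m = m → ρ x m = m) :
    (∀ m ∈ com ρ (N ⊓ Subgroup.centralizer {v}), ρ v m = -m) ∧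
    (∀ m ∈ com ρ (N ⊓ Subgroup.centralizer {v}), ρ u m ∈ com ρ (N ⊓ Subgroup.centralizer {v})) ∧
    ∀ x ∈ X, u * x = x * u → ∀ m ∈ com ρ (N ⊓ Subgroup.centralizer {v}),
      ρ x m ∈ com ρ (N ⊓ Subgroup.centralizer {v}) := by
  set H := N ⊓ Subgroup.centralizer ({v} : Set Y) with hH
  have hmem : ∀ x, x ∈ H ↔ x ∈ N ∧ v * x = x * v := fun x => by
    rw [hH, Subgroup.mem_inf, Subgroup.mem_centralizer_singleton_iff]
    exact and_congr_right fun _ => eq_comm
  have hHl : ¬ ℓ ∣ Nat.card H := fun h => hNl (h.trans (Subgroup.card_dvd_of_le inf_le_left))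
  have huinv : u⁻¹ = u := inv_eq_of_mul_eq_one_left hu
  have hvinv : v⁻¹ = v := inv_eq_of_mul_eq_one_left hv
  have hcv : ∀ h ∈ H, v * h * v⁻¹ ∈ H := by
    intro h hh
    rw [((hmem h).1 hh).2, mul_inv_cancel_right]; exact hh
  have hcu : ∀ h ∈ H, u * h * u⁻¹ ∈ H := by
    intro h hh
    obtain ⟨h2, h3⟩ := (hmem h).1 hh
    refine (hmem _).2 ⟨hNn.conj_mem h h2 u, ?_⟩
    calc v * (u * h * u⁻¹) = (v * u) * h * u⁻¹ := by group
      _ = u * (v * h) * u⁻¹ := by rw [← huv]; group
      _ = u * h * (v * u⁻¹) := by rw [h3]; group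
      _ = u * h * u⁻¹ * v := by rw [huinv, ← huv]; group
  have hcN : ∀ n ∈ N, ∀ h ∈ H, n * h * n⁻¹ ∈ H := by
    intro n hn h hh
    rw [hNab n hn h ((hmem h).1 hh).1, mul_inv_cancel_right]; exact hh
  -- `v` inverts the commutator
  have hvneg : ∀ m ∈ com ρ H, ρ v m = -m := by
    intro m hm
    have h2 : m + ρ v m ∈ com ρ H := Submodule.add_mem _ hm (com_conj ρ hcv hm)
    have h3 : ρ v (m + ρ v m) = m + ρ v m := by
      rw [map_add, ← HH.rho_mul, hv, map_one, add_comm]; rfl
    have h4 := zero_of_com ρ H hHl h2 (fun h hh => hPv h ((hmem h).1 hh).1 ((hmem h).1 hh).2 _ h3)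
    rw [add_comm] at h4
    exact eq_neg_of_add_eq_zero_left h4
  refine ⟨hvneg, fun m hm => com_conj ρ hcu hm, ?_⟩
  -- the submodule generated by the `u`-part
  set L : Submodule (ZMod ℓ) M := Submodule.span (ZMod ℓ) {w | ∃ n ∈ N, ∃ m ∈ com ρ H, ρ u m = m ∧ w = ρ n m} with hL
  have hLN : ∀ n ∈ N, ∀ m ∈ L, ρ n m ∈ L := by
    intro n hn m hm
    induction hm using Submodule.span_induction with
    | mem w hw =>
      obtain ⟨k, hk, m, hm, hum, rfl⟩ := hw
      rw [← HH.rho_mul]
      exact Submodule.subset_span ⟨n * k, N.mul_mem hn hk, m, hm, hum, rfl⟩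
    | zero => rw [map_zero]; exact Submodule.zero_mem _
    | add x z _ _ hx hz => rw [map_add]; exact Submodule.add_mem _ hx hz
    | smul c x _ hx => rw [map_smul]; exact Submodule.smul_mem _ _ hx
  have hLle : L ≤ com ρ H := by
    rw [hL, Submodule.span_le]
    rintro _ ⟨n, hn, m, hm, -, rfl⟩
    exact com_conj ρ (hcN n hn) hm
  have hup : ∀ m ∈ com ρ H, m + ρ u m ∈ L := by
    intro m hm
    refine Submodule.subset_span ⟨1, N.one_mem, m + ρ u m, Submodule.add_mem _ hm (com_conj ρ hcu hm), ?_, ?_⟩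
    · rw [map_add, ← HH.rho_mul, hu, map_one, add_comm]; rfl
    · rw [map_one]; rfl
  have hinvert : ∀ n ∈ H, (u * v) * n * (u * v)⁻¹ = n⁻¹ := by
    intro n hn
    obtain ⟨hn1, hn2⟩ := (hmem n).1 hn
    have e1 : (u * v) * n * (u * v)⁻¹ = u * n * u := by
      calc (u * v) * n * (u * v)⁻¹ = u * (v * n) * v⁻¹ * u⁻¹ := by group
        _ = u * n * u := by rw [hn2, huinv]; group
    have hm1 : u * n * u ∈ N := by
      have := hNn.conj_mem n hn1 u
      rwa [huinv] at this
    have h2 : n * (u * n * u) = 1 := by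
      apply h1 _ (N.mul_mem hn1 hm1)
      · calc u * (n * (u * n * u)) = (u * n * u) * (n * u) := by group
          _ = (u * n * u) * n * u := by group
          _ = n * (u * n * u) * u := by rw [hNab _ hm1 _ hn1]
      · have h3 : v * (u * n * u) = (u * n * u) * v := by
          calc v * (u * n * u) = (v * u) * n * u := by group
            _ = u * (v * n) * u := by rw [← huv]; group
            _ = u * n * (v * u) := by rw [hn2]; group
            _ = u * n * u * v := by rw [← huv]; group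
        calc v * (n * (u * n * u)) = (v * n) * (u * n * u) := by group
          _ = n * (v * (u * n * u)) := by rw [hn2]; group
          _ = n * (u * n * u) * v := by rw [h3]; group
    rw [e1]
    exact eq_inv_of_mul_eq_one_right h2
  have hLge : com ρ H ≤ L := by
    intro m hm
    refine mem_of_com ρ H hHl hm L fun n hn => ?_
    -- `w = u v` acts trivially modulo `L`
    have hw : ∀ m ∈ com ρ H, ρ (u * v) m - m ∈ L := by
      intro m hm
      have := hup m hm
      rw [HH.rho_mul, hvneg m hm, map_neg]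
      have e : -ρ u m - m = -(m + ρ u m) := by abel
      rw [e]
      exact L.neg_mem this
    have hsq : ∀ n ∈ H, ρ (n * n) m - m ∈ L := by
      intro n hn
      have hnm : ρ n m ∈ com ρ H := com_conj ρ (hcN n ((hmem n).1 hn).1) hm
      have h2 := hw _ hnm
      have h3 : ρ (u * v) (ρ n m) = ρ n⁻¹ (ρ (u * v) m) := by
        rw [← HH.rho_mul, ← HH.rho_mul]
        congr 1
        have := hinvert n hn
        rw [mul_inv_eq_iff_eq_mul] at this
        rw [this]
      have h4 := hLN n⁻¹ (N.inv_mem ((hmem n).1 hn).1) _ (hw m hm)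
      rw [map_sub, ← h3] at h4
      have h5 := L.sub_mem h2 h4
      have h6 : ρ n⁻¹ m - ρ n m ∈ L := by
        have e : ρ (u * v) (ρ n m) - ρ n m - (ρ (u * v) (ρ n m) - ρ n⁻¹ m) = ρ n⁻¹ m - ρ n m := by abel
        rwa [e] at h5
      have h7 := hLN n ((hmem n).1 hn).1 _ h6
      rw [map_sub, ← HH.rho_mul, ← HH.rho_mul, mul_inv_cancel, map_one] at h7
      have h8 := L.neg_mem h7
      rw [neg_sub] at h8
      exact h8
    -- `n` is a square
    obtain ⟨k, hk⟩ := hNodd
    have hn' : n ^ Nat.card N = 1 := congrArg Subtype.val (pow_card_eq_one' (x := (⟨n, ((hmem n).1 hn).1⟩ : N)))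
    have e : n = n ^ (k + 1) * n ^ (k + 1) := by
      rw [← pow_add, show k + 1 + (k + 1) = Nat.card N + 1 by omega, pow_succ, hn', one_mul]
    rw [e]
    exact hsq _ (H.pow_mem hn _)
  intro x hx hux m hm
  apply hLle
  have hm' := hLge hm
  clear hm
  induction hm' using Submodule.span_induction with
  | mem w hw =>
    obtain ⟨n, hn, m, hm, hum, rfl⟩ := hw
    have e : ρ x (ρ n m) = ρ (x * n * x⁻¹) m := by
      conv_rhs => rw [← hPu x hx hux m hum, ← HH.rho_mul]
      rw [← HH.rho_mul]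
      congr 1
      group
    rw [e]
    exact Submodule.subset_span ⟨_, hNn.conj_mem n hn x, m, hm, hum, rfl⟩
  | zero => rw [map_zero]; exact Submodule.zero_mem _
  | add x z _ _ hx hz => rw [map_add]; exact Submodule.add_mem _ hx hz
  | smul c x _ hx => rw [map_smul]; exact Submodule.smul_mem _ _ hx

/-- the representation-theoretic core -/
theorem rep_abelian [Finite M] [Finite Y] (ρ : Representation (ZMod ℓ) Y M) (hinj : Function.Injective ρ)
    (hirr : ∀ W : Submodule (ZMod ℓ) M, (∀ x, ∀ w ∈ W, ρ x w ∈ W) → W = ⊥ ∨ W = ⊤)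
    (X : Subgroup Y) [hXn : X.Normal] (hX : Odd (Nat.card X)) (hXs : Group.IsSolvable X) {a b : Y}
    (ha : a * a = 1) (hb : b * b = 1) (hab : a * b = b * a) (hgen : X ⊔ Subgroup.closure {a, b} = ⊤)
    (h1 : ∀ x ∈ X, a * x = x * a → b * x = x * b → x = 1)
    (hc : ∀ s, s = a ∨ s = b ∨ s = a * b → ∀ x ∈ X, ∀ y ∈ X, s * x = x * s → s * y = y * s → x * y = y * x)
    (hP : ∀ s, s = a ∨ s = b ∨ s = a * b → ∀ x ∈ X, s * x = x * s → ∀ m, ρ s m = m → ρ x m = m) :
    ∀ x ∈ X, ∀ y ∈ X, x * y = y * x := by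
  classical
  by_cases hbot : X = ⊥
  · subst hbot
    intro x hx y hy
    rw [Subgroup.mem_bot] at hx hy
    rw [hx, hy]
  -- a minimal normal subgroup inside `X`
  obtain ⟨N, hNn, hNX, hN0, hNmin⟩ : ∃ N : Subgroup Y, N.Normal ∧ N ≤ X ∧ N ≠ ⊥ ∧
      ∀ K : Subgroup Y, K.Normal → K ≤ N → K = ⊥ ∨ K = N := by
    obtain ⟨N, hN, hmin⟩ := (Set.toFinite {N : Subgroup Y | N.Normal ∧ N ≤ X ∧ N ≠ ⊥}).exists_minimal ⟨X, hXn, le_rfl, hbot⟩
    refine ⟨N, hN.1, hN.2.1, hN.2.2, fun K hK hKN => ?_⟩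
    by_cases hK0 : K = ⊥
    · exact Or.inl hK0
    · exact Or.inr (le_antisymm hKN (hmin ⟨hK, hKN.trans hN.2.1, hK0⟩ hKN))
  haveI := hNn
  have hNs : Group.IsSolvable N := by
    exact Cop.isSolvable_of_le hNX hXs
  obtain ⟨hNc, p, hp, hNp⟩ := Solv.minimal_normal_of_solvable N hNs hN0 hNmin
  haveI : Fact p.Prime := ⟨hp⟩
  have hNab : ∀ x ∈ N, ∀ y ∈ N, x * y = y * x := fun x hx y hy => Solv.comm_of_isMulCommutative hNc hx hy
  have hNodd : Odd (Nat.card N) := by
    obtain ⟨k, hk⟩ := Subgroup.card_dvd_of_le hNX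
    rw [hk] at hX
    exact (Nat.odd_mul.1 hX).1
  have hNpg : IsPGroup p N := by
    rw [isPGroup_iff_pow_pow_eq_one]
    intro x
    exact ⟨1, Subtype.ext (by rw [pow_one]; exact hNp x x.2)⟩
  have hNl : ¬ ℓ ∣ Nat.card N := by
    intro hdvd
    obtain ⟨n, hn⟩ := IsPGroup.iff_card.1 hNpg
    rw [hn] at hdvd
    have h2 : ℓ = p := (Nat.prime_dvd_prime_iff_eq hℓ.out hp).1 (hℓ.out.dvd_of_dvd_pow hdvd)
    subst h2
    have h3 := H62.ChiefRep.pCore_eq_bot ρ hinj hirr
    have h4 := Solv.le_pCore hNn hNpg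
    rw [h3, le_bot_iff] at h4
    exact hN0 h4
  have habinv : (a * b) * (a * b) = 1 := by
    calc (a * b) * (a * b) = a * (b * a) * b := by group
      _ = (a * a) * (b * b) := by rw [← hab]; group
      _ = 1 := by rw [ha, hb, one_mul]
  have key : ∀ u v w : Y, u * u = 1 → v * v = 1 → w * w = 1 → u * v = v * u → w * v = v * w →
      w = u * v → u = w * v → (v = a ∨ v = b ∨ v = a * b) → (u = a ∨ u = b ∨ u = a * b) → (w = a ∨ w = b ∨ w = a * b) →
      (∀ x ∈ X, u * x = x * u → v * x = x * v → x = 1) → X ⊔ Subgroup.closure {u, v} = ⊤ →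
      com ρ (N ⊓ Subgroup.centralizer {v}) ≠ ⊥ → ∀ x ∈ X, ∀ y ∈ X, x * y = y * x := by
    intro u v w hu hv hw huv hwv hwe hue hv' hu' hw' h1' hgen' hne
    have hA := step ρ X N hNn hNab hNodd hNl hu hv huv (fun x hx => h1' x (hNX hx))
      (fun x hx hvx => hP v hv' x (hNX hx) hvx) (fun x hx hux => hP u hu' x hx hux)
    have h1w : ∀ x ∈ N, w * x = x * w → v * x = x * v → x = 1 := by
      intro x hx h2 h3
      refine h1' x (hNX hx) ?_ h3
      rw [hue, mul_assoc, h3, ← mul_assoc, h2, mul_assoc]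
    have hB := step ρ X N hNn hNab hNodd hNl hw hv hwv h1w
      (fun x hx hvx => hP v hv' x (hNX hx) hvx) (fun x hx hux => hP w hw' x hx hux)
    set W := com ρ (N ⊓ Subgroup.centralizer ({v} : Set Y)) with hW
    -- `v` and `C_X(v)`
    have hC : ∀ x ∈ X, v * x = x * v → ∀ m ∈ W, ρ x m ∈ W := by
      intro x hx hvx m hm
      refine com_conj ρ (fun h hh => ?_) hm
      have h2 := (Subgroup.mem_inf.1 hh).2
      rw [Subgroup.mem_centralizer_singleton_iff] at h2
      rw [hc v hv' x hx h (hNX hh.1) hvx h2.symm, mul_inv_cancel_right]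
      exact hh
    let T : Subgroup Y :=
      { carrier := {y | ∀ m ∈ W, ρ y m ∈ W}
        one_mem' := fun m hm => by rw [map_one]; exact hm
        mul_mem' := fun {x y} hx hy m hm => by rw [HH.rho_mul]; exact hx _ (hy m hm)
        inv_mem' := fun {x} hx m hm => by
          -- finite order
          have h2 : ∀ k : ℕ, ∀ m ∈ W, ρ (x ^ k) m ∈ W := by
            intro k
            induction k with
            | zero => intro m hm; rw [pow_zero, map_one]; exact hm
            | succ k ih => intro m hm; rw [pow_succ, HH.rho_mul]; exact ih _ (hx m hm)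
          have h3 : x⁻¹ = x ^ (orderOf x - 1) := by
            rw [inv_eq_iff_mul_eq_one, ← pow_succ', Nat.sub_add_cancel (orderOf_pos x), pow_orderOf_eq_one]
          rw [h3]
          exact h2 _ m hm }
    have huinv : u⁻¹ = u := inv_eq_of_mul_eq_one_left hu
    have hvinv : v⁻¹ = v := inv_eq_of_mul_eq_one_left hv
    have hXT : X ≤ T := by
      apply H52.four_group_le X hX u v hu hv huv (fun x hx => hXn.conj_mem x hx u) (fun x hx => hXn.conj_mem x hx v) T
      · intro x hx hux m hm; exact hA.2.2 x hx hux m hm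
      · intro x hx hvx m hm; exact hC x hx hvx m hm
      · intro x hx hwx m hm; exact hB.2.2 x hx (by rw [hwe]; exact hwx) m hm
    have hT : T = ⊤ := by
      rw [eq_top_iff, ← hgen', sup_le_iff]
      refine ⟨hXT, ?_⟩
      rw [Subgroup.closure_le]
      rintro y (rfl | rfl)
      · exact hA.2.1
      · intro m hm
        rw [hA.1 m hm]
        exact W.neg_mem hm
    rcases hirr W (fun x m hm => (show x ∈ T by rw [hT]; trivial) m hm) with h2 | h2
    · exact absurd h2 hne
    -- `v` inverts `M`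
    have hvneg : ∀ m, ρ v m = -m := fun m => hA.1 m (by rw [h2]; trivial)
    have hcent : ∀ x, v * x = x * v := by
      intro x
      apply hinj
      apply LinearMap.ext
      intro m
      rw [HH.rho_mul, HH.rho_mul, hvneg, hvneg, map_neg]
    intro x hx y hy
    exact hc v hv' x hx y hy (hcent x) (hcent y)
  have hainv : a⁻¹ = a := inv_eq_of_mul_eq_one_left ha
  have hbinv : b⁻¹ = b := inv_eq_of_mul_eq_one_left hb
  by_cases hca : com ρ (N ⊓ Subgroup.centralizer {a}) ≠ ⊥
  · refine key b a (a * b) hb ha habinv hab.symm ?_ hab ?_ (Or.inl rfl) (Or.inr (Or.inl rfl)) (Or.inr (Or.inr rfl))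
      (fun x hx h2 h3 => h1 x hx h3 h2) (by rw [Set.pair_comm]; exact hgen) hca
    · rw [mul_assoc, ← hab]
    · rw [mul_assoc, ← hab, ← mul_assoc, ha, one_mul]
  by_cases hcb : com ρ (N ⊓ Subgroup.centralizer {b}) ≠ ⊥
  · refine key a b (a * b) ha hb habinv hab ?_ rfl ?_ (Or.inr (Or.inl rfl)) (Or.inl rfl) (Or.inr (Or.inr rfl)) h1 hgen hcb
    · rw [← mul_assoc, ← hab]
    · rw [mul_assoc, hb, mul_one]
  by_cases hcab : com ρ (N ⊓ Subgroup.centralizer {a * b}) ≠ ⊥
  · refine key a (a * b) b ha habinv hb ?_ ?_ ?_ ?_ (Or.inr (Or.inr rfl)) (Or.inl rfl) (Or.inr (Or.inl rfl)) ?_ ?_ hcab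
    · rw [mul_assoc, ← hab]
    · rw [← mul_assoc, ← hab]
    · rw [← mul_assoc, ha, one_mul]
    · rw [hab, ← mul_assoc, hb, one_mul]
    · intro x hx h2 h3
      refine h1 x hx h2 ?_
      have e : b = a * (a * b) := by rw [← mul_assoc, ha, one_mul]
      rw [e, mul_assoc, h3, ← mul_assoc, h2, mul_assoc]
    · rw [eq_top_iff, ← hgen]
      refine sup_le_sup_left ?_ X
      rw [Subgroup.closure_le]
      have h2 : a ∈ Subgroup.closure ({a, a * b} : Set Y) := Subgroup.subset_closure (Or.inl rfl)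
      have h3 : a * b ∈ Subgroup.closure ({a, a * b} : Set Y) := Subgroup.subset_closure (Or.inr rfl)
      rintro y (rfl | rfl)
      · exact h2
      · have h4 := Subgroup.mul_mem _ h2 h3
        rwa [← mul_assoc, ha, one_mul] at h4
  -- all three trivial
  exfalso
  push Not at hca hcb hcab
  apply hN0
  have htriv : ∀ s : Y, com ρ (N ⊓ Subgroup.centralizer {s}) = ⊥ → ∀ x ∈ N, s * x = x * s → x ∈ (⊥ : Subgroup Y) := by
    intro s hs x hx hsx
    rw [Subgroup.mem_bot]
    apply hinj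
    rw [map_one]
    apply LinearMap.ext
    intro m
    have h2 := sub_mem_com ρ (H := N ⊓ Subgroup.centralizer {s}) (h := x)
      ⟨hx, Subgroup.mem_centralizer_singleton_iff.2 hsx.symm⟩ m
    rw [hs, Submodule.mem_bot, sub_eq_zero] at h2
    exact h2
  rw [eq_bot_iff]
  exact H52.four_group_le N hNodd a b ha hb hab (fun x hx => hNn.conj_mem x hx a) (fun x hx => hNn.conj_mem x hx b) ⊥
    (htriv a hca) (htriv b hcb) (htriv (a * b) hcab)

end rep

open H62.ChiefRep in
/-- An element of the normal subgroup `N` outside the Fitting subgroup of `N` acts nontrivially on some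
irreducible chief module inside `N`; fixed vectors lift. -/
theorem exists_chief_rep' {X : Type u} [Group X] [Finite X] (hX : Group.IsSolvable X) (N : Subgroup X) [N.Normal]
    {g : X} (hg : g ∈ N) (hgF : g ∉ (Cfsg.fittingSubgroup ↥N).map N.subtype) :
    ∃ (ℓ : ℕ) (_ : Fact ℓ.Prime) (V : Type u) (_ : AddCommGroup V) (_ : Module (ZMod ℓ) V) (_ : Finite V)
      (ρ : Representation (ZMod ℓ) X V), ρ g ≠ 1 ∧
      (∀ W : Submodule (ZMod ℓ) V, (∀ x, ∀ w ∈ W, ρ x w ∈ W) → W = ⊥ ∨ W = ⊤) ∧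
      ∀ H : Subgroup X, (Nat.card H).Coprime (Nat.card N) → ∀ v : V, (∀ y ∈ H, ρ y v = v) →
        ∀ x : X, (∀ y ∈ N, y ∈ Subgroup.centralizer (H : Set X) → x * y = y * x) → ρ x v = v := by
  classical
  obtain ⟨-, h2⟩ := Cfsg.Agent.S3766.result hX N g
  rw [h2] at hgF
  push Not at hgF
  obtain ⟨U, V, ⟨hU, hV, hVU, hmin⟩, hUF, w, hw, hwg⟩ := hgF hg
  obtain ⟨ℓ, hℓ, hpow, hcomm, hdvd⟩ := chief_elementary hX hU hV hVU hmin
  haveI : Fact ℓ.Prime := ⟨hℓ⟩
  have hn : ∀ (K : Subgroup X), K.Normal → ∀ L : Subgroup X, L ≤ Subgroup.normalizer (K : Set X) := by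
    intro K hK L
    haveI := hK
    rw [Subgroup.normalizer_eq_top]
    exact le_top
  have hUN : U ≤ N := hUF.trans (Subgroup.map_subtype_le _)
  obtain ⟨A, iA, iM, ⟨S⟩⟩ := BG3.exists_secMod (ℓ := ℓ) (M := U) (M1 := V) (Y := ⊤) (hn V hV U) (hn U hU ⊤)
    (hn V hV ⊤) hpow hcomm
  haveI : Finite A := S.finite
  let ρ : Representation (ZMod ℓ) X A := S.ρ.comp (Subgroup.topEquiv.symm : X ≃* (⊤ : Subgroup X)).toMonoidHom
  have hρ : ∀ x : X, ρ x = S.ρ ⟨x, Subgroup.mem_top x⟩ := fun x => rfl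
  refine ⟨ℓ, inferInstance, A, iA, iM, inferInstance, ρ, ?_, ?_, ?_⟩
  · intro h1
    have h3 := (S.rho_eq_iff ⟨g, Subgroup.mem_top g⟩).1 (by
      intro v
      rw [← hρ, h1]; rfl) w hw
    apply hwg
    change g * w * g⁻¹ * w⁻¹ ∈ V at h3
    have h4 := V.inv_mem h3
    have h5 : (g * w * g⁻¹ * w⁻¹)⁻¹ = w * g * w⁻¹ * g⁻¹ := by group
    rwa [h5] at h4
  · intro W hW
    -- the preimage
    let M : Subgroup X :=
      { carrier := {x | ∃ hx : x ∈ U, (S.π ⟨x, hx⟩).toAdd ∈ W}
        one_mem' := ⟨U.one_mem, by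
          have : S.π ⟨1, U.one_mem⟩ = 1 := map_one S.π
          rw [this]; exact W.zero_mem⟩
        mul_mem' := by
          rintro a b ⟨ha, ha'⟩ ⟨hb, hb'⟩
          refine ⟨U.mul_mem ha hb, ?_⟩
          have : S.π ⟨a * b, U.mul_mem ha hb⟩ = S.π ⟨a, ha⟩ * S.π ⟨b, hb⟩ := map_mul S.π ⟨a, ha⟩ ⟨b, hb⟩
          rw [this]; exact W.add_mem ha' hb'
        inv_mem' := by
          rintro a ⟨ha, ha'⟩
          refine ⟨U.inv_mem ha, ?_⟩
          have : S.π ⟨a⁻¹, U.inv_mem ha⟩ = (S.π ⟨a, ha⟩)⁻¹ := map_inv S.π ⟨a, ha⟩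
          rw [this]; exact W.neg_mem ha' }
    have hMn : M.Normal := by
      constructor
      rintro a ⟨ha, ha'⟩ y
      refine ⟨hU.conj_mem a ha y, ?_⟩
      have h3 := S.equiv ⟨y, Subgroup.mem_top y⟩ ⟨a, ha⟩
      have h4 : BG3.cjHom (hn U hU ⊤) ⟨y, Subgroup.mem_top y⟩ ⟨a, ha⟩ = ⟨y * a * y⁻¹, hU.conj_mem a ha y⟩ := rfl
      rw [h4] at h3
      rw [h3]
      exact hW y _ ha'
    have hVM : V ≤ M := by
      intro a ha
      refine ⟨hVU.le ha, ?_⟩
      have h3 : S.π ⟨a, hVU.le ha⟩ = 1 := (S.ker _).2 ha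
      rw [h3]; exact W.zero_mem
    have hMU : M ≤ U := fun a ha => ha.1
    rcases hmin M hMn hVM hMU with h3 | h3
    · left
      rw [eq_bot_iff]
      intro v hv
      obtain ⟨a, rfl⟩ := S.exists_rep v
      have h4 : (a : X) ∈ M := ⟨a.2, hv⟩
      rw [h3] at h4
      rw [Submodule.mem_bot, (S.ker a).2 h4]; rfl
    · right
      rw [eq_top_iff]
      intro v _
      obtain ⟨a, rfl⟩ := S.exists_rep v
      have h4 : (a : X) ∈ M := by rw [h3]; exact a.2
      exact h4.2
  · intro H hH v hfix y hy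
    have hUsol : Group.IsSolvable U := by haveI := hX; infer_instance
    obtain ⟨x, hxc, hxv⟩ := S.exists_fixed_rep (H := H) le_top hVU.le (hn V hV U) (hn V hV ⊤)
      (Nat.Coprime.coprime_dvd_right (Subgroup.card_dvd_of_le hUN) hH) hUsol (v := v) (by
        intro h hh
        exact hfix h hh)
    have h1 := hy x (hUN x.2) hxc
    have h3 := S.equiv ⟨y, Subgroup.mem_top y⟩ x
    have h4 : BG3.cjHom (hn U hU ⊤) ⟨y, Subgroup.mem_top y⟩ x = x := by
      apply Subtype.ext
      change y * x * y⁻¹ = x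
      rw [h1, mul_inv_cancel_right]
    rw [h4, hxv, ← hρ] at h3
    exact h3.symm

theorem closure_pair_comm {G : Type u} [Group G] {a b : G} (hab : a * b = b * a) :
    ∀ z ∈ Subgroup.closure ({a, b} : Set G), ∀ y ∈ Subgroup.closure ({a, b} : Set G), z * y = y * z := by
  have h1 : Subgroup.closure ({a, b} : Set G) ≤ Subgroup.centralizer ({a, b} : Set G) := by
    rw [Subgroup.closure_le]
    rintro y (rfl | rfl)
    · rw [SetLike.mem_coe, Subgroup.mem_centralizer_iff]
      rintro z (rfl | rfl)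
      · rfl
      · exact hab.symm
    · rw [SetLike.mem_coe, Subgroup.mem_centralizer_iff]
      rintro z (rfl | rfl)
      · exact hab
      · rfl
  intro z hz y hy
  have h2 : Subgroup.closure ({a, b} : Set G) ≤ Subgroup.centralizer {z} := by
    rw [Subgroup.closure_le]
    intro w hw
    rw [SetLike.mem_coe, Subgroup.mem_centralizer_singleton_iff]
    exact Subgroup.mem_centralizer_iff.1 (h1 hz) w hw
  exact (Subgroup.mem_centralizer_singleton_iff.1 (h2 hy)).symm

theorem closure_pair_coprime {G : Type u} [Group G] [Finite G] {a b : G} (ha : a * a = 1) (hb : b * b = 1)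
    (hab : a * b = b * a) {n : ℕ} (hn : Odd n) : Nat.Coprime n (Nat.card (Subgroup.closure ({a, b} : Set G))) := by
  have hc := closure_pair_comm hab
  let T : Subgroup G :=
    { carrier := {z | z ∈ Subgroup.closure ({a, b} : Set G) ∧ z * z = 1}
      one_mem' := ⟨Subgroup.one_mem _, one_mul 1⟩
      mul_mem' := by
        rintro x y ⟨hx, hx2⟩ ⟨hy, hy2⟩
        refine ⟨Subgroup.mul_mem _ hx hy, ?_⟩
        calc (x * y) * (x * y) = x * (y * x) * y := by group
          _ = (x * x) * (y * y) := by rw [hc y hy x hx]; group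
          _ = 1 := by rw [hx2, hy2, one_mul]
      inv_mem' := by
        rintro x ⟨hx, hx2⟩
        refine ⟨Subgroup.inv_mem _ hx, ?_⟩
        rw [← mul_inv_rev, hx2, inv_one] }
  have h1 : Subgroup.closure ({a, b} : Set G) ≤ T := by
    rw [Subgroup.closure_le]
    rintro y (rfl | rfl)
    · exact ⟨Subgroup.subset_closure (Or.inl rfl), ha⟩
    · exact ⟨Subgroup.subset_closure (Or.inr rfl), hb⟩
  have h2 : IsPGroup 2 (Subgroup.closure ({a, b} : Set G)) := by
    rw [isPGroup_iff_pow_pow_eq_one]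
    intro x
    exact ⟨1, Subtype.ext (by
      rw [pow_one, pow_two]
      exact (h1 x.2).2)⟩
  haveI : Fact (Nat.Prime 2) := ⟨Nat.prime_two⟩
  obtain ⟨k, hk⟩ := IsPGroup.iff_card.1 h2
  rw [hk]
  exact Nat.Coprime.pow_right k (Nat.coprime_two_right.2 hn)

/-- the case in which `X` is normal and `G` is generated by `X` and the four-group -/
theorem nil_top {G : Type u} [Group G] [Finite G] (hG : Group.IsSolvable G) {a b : G} (ha : a * a = 1) (hb : b * b = 1)
    (hab : a * b = b * a) (X : Subgroup G) [hXn : X.Normal] (hX : Odd (Nat.card X))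
    (hgen : X ⊔ Subgroup.closure {a, b} = ⊤)
    (h1 : ∀ x ∈ X, a * x = x * a → b * x = x * b → x = 1)
    (hc : ∀ s, s = a ∨ s = b ∨ s = a * b → ∀ x ∈ X, ∀ y ∈ X, s * x = x * s → s * y = y * s → x * y = y * x) :
    ∀ x ∈ X, ∀ y ∈ X, x * y * x⁻¹ * y⁻¹ ∈ (Cfsg.fittingSubgroup X).map X.subtype := by
  classical
  intro x hx y hy
  by_contra hcon
  obtain ⟨ℓ, iℓ, M, iM, iMod, iF, ρ, hg, hirr, hlift⟩ := exists_chief_rep' hG X (g := x * y * x⁻¹ * y⁻¹)
    (X.mul_mem (X.mul_mem (X.mul_mem hx hy) (X.inv_mem hx)) (X.inv_mem hy)) hcon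
  set e := HH.toEquiv (F := ZMod ℓ) ρ with he
  let f : G →* e.range := e.rangeRestrict
  have hfs : Function.Surjective f := e.rangeRestrict_surjective
  haveI : Finite e.range := Finite.of_surjective f hfs
  have hcoe : ∀ g, HH.tautRep e.range (f g) = ρ g := fun _ => rfl
  have hinj := HH.tautRep_injective e.range
  have habs : (a * b) * (a * b) = 1 := by
    calc (a * b) * (a * b) = a * (b * a) * b := by group
      _ = (a * a) * (b * b) := by rw [← hab]; group
      _ = 1 := by rw [ha, hb, one_mul]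
  have hsq : ∀ s, s = a ∨ s = b ∨ s = a * b → s * s = 1 := by
    rintro s (rfl | rfl | rfl)
    · exact ha
    · exact hb
    · exact habs
  -- the group `⟨s⟩`
  have hz2 : ∀ s : G, s * s = 1 → (Nat.card (Subgroup.zpowers s)).Coprime (Nat.card X) := by
    intro s hs
    have h2 : Nat.card (Subgroup.zpowers s) ∣ 2 := by
      rw [Nat.card_zpowers]
      exact orderOf_dvd_of_pow_eq_one (by rw [pow_two, hs])
    exact Nat.Coprime.coprime_dvd_left h2 ((Nat.coprime_two_left).2 hX)
  have hzsol : ∀ s : G, Group.IsSolvable (Subgroup.zpowers s) := fun s => by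
    haveI := hG; infer_instance
  have hcomm : ∀ s g : G, s * g = g * s → ∀ z ∈ Subgroup.zpowers s, z * g = g * z := by
    intro s g hsg z hz
    obtain ⟨k, rfl⟩ := hz
    exact (show Commute s g from hsg).zpow_left k
  have hliftc : ∀ s, s * s = 1 → ∀ h ∈ X.map f, f s * h = h * f s → ∃ c ∈ X, s * c = c * s ∧ f c = h := by
    intro s hs h hh hsh
    obtain ⟨c, hc1, hc2⟩ := H62.ChiefRep.fixed_map f (Subgroup.zpowers s) X (hz2 s hs) (Or.inl (hzsol s)) hh (by
      rintro _ ⟨k, rfl⟩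
      have h2 : Commute (f s) h := hsh
      have h3 := h2.zpow_left k
      rw [← map_zpow] at h3
      change f (s ^ k) * h * (f (s ^ k))⁻¹ = h
      rw [h3.eq, mul_inv_cancel_right])
    refine ⟨c, hc1.1, ?_, hc2⟩
    exact Subgroup.mem_centralizer_iff.1 hc1.2 s (Subgroup.mem_zpowers s)
  haveI : (X.map f).Normal := hXn.map f hfs
  have hXf : Odd (Nat.card (X.map f)) := by
    obtain ⟨k, hk⟩ := Subgroup.card_map_dvd X f
    rw [hk] at hX
    exact (Nat.odd_mul.1 hX).1
  have hs' : ∀ t, t = f a ∨ t = f b ∨ t = f a * f b → ∃ s, (s = a ∨ s = b ∨ s = a * b) ∧ f s = t := by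
    rintro t (rfl | rfl | rfl)
    · exact ⟨a, Or.inl rfl, rfl⟩
    · exact ⟨b, Or.inr (Or.inl rfl), rfl⟩
    · exact ⟨a * b, Or.inr (Or.inr rfl), map_mul f a b⟩
  have hres := rep_abelian (HH.tautRep e.range) hinj (fun W hW => hirr W (fun x w hw => hW (f x) w hw)) (X.map f) hXf
    (Cop.isSolvable_of_le le_top (by
      haveI := hG
      haveI := Group.isSolvable_of_surjective hfs
      infer_instance)) (a := f a) (b := f b) (by rw [← map_mul, ha, map_one]) (by rw [← map_mul, hb, map_one])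
    (by rw [← map_mul, ← map_mul, hab]) (by
      have h2 := congrArg (Subgroup.map f) hgen
      rw [Subgroup.map_sup, MonoidHom.map_closure, Set.image_pair, Subgroup.map_top_of_surjective f hfs] at h2
      exact h2) (by
      intro h hh hah hbh
      -- the four-group
      have hV : Subgroup.closure ({a, b} : Set G) = Subgroup.closure {a, b} := rfl
      set V := Subgroup.closure ({a, b} : Set G) with hVdef
      have hVc : (Nat.card V).Coprime (Nat.card X) := by
        exact Nat.Coprime.symm (closure_pair_coprime ha hb hab hX)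
      obtain ⟨c, hc1, hc2⟩ := H62.ChiefRep.fixed_map f V X hVc (Or.inl (by haveI := hG; infer_instance)) hh (by
        intro z hz
        have h2 : z ∈ (Subgroup.centralizer {h}).comap f := by
          refine (Subgroup.closure_le _).2 ?_ hz
          rintro y (rfl | rfl)
          · exact Subgroup.mem_centralizer_singleton_iff.2 hah
          · exact Subgroup.mem_centralizer_singleton_iff.2 hbh
        have h3 := Subgroup.mem_centralizer_singleton_iff.1 h2
        rw [h3, mul_inv_cancel_right])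
      have h4 := Subgroup.mem_centralizer_iff.1 hc1.2
      rw [← hc2, h1 c hc1.1 (h4 a (Subgroup.subset_closure (Or.inl rfl))) (h4 b (Subgroup.subset_closure (Or.inr rfl))),
        map_one])
    (by
      intro t ht h hh k hk hth htk
      obtain ⟨s, hs, rfl⟩ := hs' t ht
      obtain ⟨c, hcX, hsc, rfl⟩ := hliftc s (hsq s hs) h hh hth
      obtain ⟨d, hdX, hsd, rfl⟩ := hliftc s (hsq s hs) k hk htk
      rw [← map_mul, ← map_mul, hc s hs c hcX d hdX hsc hsd])
    (by
      intro t ht h hh hth m hm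
      obtain ⟨s, hs, rfl⟩ := hs' t ht
      obtain ⟨c, hcX, hsc, rfl⟩ := hliftc s (hsq s hs) h hh hth
      rw [hcoe] at hm ⊢
      refine hlift (Subgroup.zpowers s) (hz2 s (hsq s hs)) m ?_ c ?_
      · rintro _ ⟨k, rfl⟩
        have hn : ∀ n : ℕ, ρ (s ^ n) m = m := by
          intro n
          induction n with
          | zero => rw [pow_zero, map_one]; rfl
          | succ n ih => rw [pow_succ, HH.rho_mul, hm, ih]
        obtain ⟨n, hn1, hn2⟩ : ∃ n : ℕ, s ^ n = s ^ k ∧ True := by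
          obtain ⟨n, hn⟩ := (mem_powers_iff_mem_zpowers (x := s)).2 ⟨k, rfl⟩
          exact ⟨n, hn, trivial⟩
        change ρ (s ^ k) m = m
        rw [← hn1]; exact hn n
      · intro y hy hyc
        exact hc s hs c hcX y hy hsc (Subgroup.mem_centralizer_iff.1 hyc s (Subgroup.mem_zpowers s)))
  apply hg
  have hfe : f (x * y * x⁻¹ * y⁻¹) = 1 := by
    rw [map_mul, map_mul, map_mul, hres _ ⟨x, hx, rfl⟩ _ ⟨y, hy, rfl⟩, map_inv, map_inv, mul_inv_cancel_right,
      mul_inv_cancel]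
  rw [← hcoe, hfe, map_one]

theorem nil {G : Type u} [Group G] [Finite G] {a b : G} (ha : a * a = 1) (hb : b * b = 1) (hab : a * b = b * a)
    {X : Subgroup G} (hX : Odd (Nat.card X)) (hXa : ∀ x ∈ X, a * x * a⁻¹ ∈ X) (hXb : ∀ x ∈ X, b * x * b⁻¹ ∈ X)
    (h1 : ∀ x ∈ X, a * x = x * a → b * x = x * b → x = 1)
    (hc : ∀ s, s = a ∨ s = b ∨ s = a * b → ∀ x ∈ X, ∀ y ∈ X, s * x = x * s → s * y = y * s → x * y = y * x) :
    ∀ x ∈ X, ∀ y ∈ X, x * y * x⁻¹ * y⁻¹ ∈ (Cfsg.fittingSubgroup X).map X.subtype := by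
  classical
  set V := Subgroup.closure ({a, b} : Set G) with hV
  set Y := X ⊔ V with hY
  have hXY : X ≤ Y := le_sup_left
  have haV : a ∈ V := Subgroup.subset_closure (Or.inl rfl)
  have hbV : b ∈ V := Subgroup.subset_closure (Or.inr rfl)
  have haY : a ∈ Y := (le_sup_right : V ≤ Y) haV
  have hbY : b ∈ Y := (le_sup_right : V ≤ Y) hbV
  have hnorm : ∀ s : G, s * s = 1 → (∀ x ∈ X, s * x * s⁻¹ ∈ X) → s ∈ Subgroup.normalizer (X : Set G) := by
    intro s hs hsX
    have hsinv : s⁻¹ = s := inv_eq_of_mul_eq_one_left hs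
    rw [Subgroup.mem_normalizer_iff]
    intro x
    refine ⟨fun hx => hsX x hx, fun hx => ?_⟩
    have h2 := hsX _ hx
    have e : s * (s * x * s⁻¹) * s⁻¹ = (s * s) * x * (s * s)⁻¹ := by group
    rw [e, hs] at h2
    simpa using h2
  have hYn : Y ≤ Subgroup.normalizer (X : Set G) := by
    refine sup_le Subgroup.le_normalizer ?_
    rw [hV, Subgroup.closure_le]
    rintro y (rfl | rfl)
    · exact hnorm y ha hXa
    · exact hnorm y hb hXb
  haveI hXn : (X.subgroupOf Y).Normal := Subgroup.normal_subgroupOf_of_le_normalizer hYn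
  let a' : Y := ⟨a, haY⟩
  let b' : Y := ⟨b, hbY⟩
  have ha' : a' * a' = 1 := Subtype.ext ha
  have hb' : b' * b' = 1 := Subtype.ext hb
  have hab' : a' * b' = b' * a' := Subtype.ext hab
  have hgen : X.subgroupOf Y ⊔ Subgroup.closure {a', b'} = ⊤ := by
    apply Subgroup.map_injective Y.subtype_injective
    rw [Subgroup.map_sup, MonoidHom.map_closure, Set.image_pair, ← MonoidHom.range_eq_map, Subgroup.range_subtype,
      Subgroup.map_subgroupOf_eq_of_le hXY]
    rfl
  have hXcard : Odd (Nat.card (X.subgroupOf Y)) := by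
    rw [Nat.card_congr (Subgroup.subgroupOfEquivOfLe hXY).toEquiv]; exact hX
  have hYs : Group.IsSolvable Y := by
    rw [Group.isSolvable_iff_subgroup_quotient (X.subgroupOf Y)]
    refine ⟨S14.odd_order hXcard, Group.isSolvable_of_comm fun g h => ?_⟩
    have h2 := congrArg (Subgroup.map (QuotientGroup.mk' (X.subgroupOf Y))) hgen
    rw [Subgroup.map_sup, MonoidHom.map_closure, Set.image_pair,
      Subgroup.map_top_of_surjective _ (QuotientGroup.mk'_surjective _), QuotientGroup.map_mk'_self, bot_sup_eq] at h2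
    refine closure_pair_comm ?_ g (by rw [h2]; trivial) h (by rw [h2]; trivial)
    rw [← map_mul, hab', map_mul]
  intro x hx y hy
  have hmain := nil_top hYs ha' hb' hab' (X.subgroupOf Y) hXcard hgen
    (fun x hx h2 h3 => Subtype.ext (h1 x hx (congrArg Subtype.val h2) (congrArg Subtype.val h3)))
    (by
      rintro s hs x hx y hy h2 h3
      refine Subtype.ext (hc s ?_ x hx y hy (congrArg Subtype.val h2) (congrArg Subtype.val h3))
      rcases hs with rfl | rfl | rfl
      · exact Or.inl rfl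
      · exact Or.inr (Or.inl rfl)
      · exact Or.inr (Or.inr rfl))
    ⟨x, hXY hx⟩ hx ⟨y, hXY hy⟩ hy
  obtain ⟨z, hz, hze⟩ := hmain
  refine ⟨Subgroup.subgroupOfEquivOfLe hXY z, ?_, ?_⟩
  · rw [← PF.fittingSubgroup_map (Subgroup.subgroupOfEquivOfLe hXY)]
    exact ⟨z, hz, rfl⟩
  · exact congrArg Subtype.val hze

end Cfsg.Agent.H23.Nil
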